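import Cfsg.Agent.SiftX.Fus32
import Cfsg.Agent.J3Cent.Main

/-!
The 2-fusion system of the third Janko group is simple (owner: helper12).
-/

set_option autoImplicit false
set_option maxRecDepth 1000000

namespace Cfsg.Agent.J3Cent

open Cfsg.Agent.CosetEnum Cfsg.Agent.H90.Sift Cfsg.Agent.SiftX Cfsg.Agent.J3Out Subgroup
open Cfsg.Agent.CosetEnum.J3

theorem nx_two : (M32.ofN (nxL.getD 2 0)) ≠ M32.ofN 2 ∧ (M32.ofN (nxL.getD 2 0)) ≠ M32.z * M32.ofN 2 ∧
    (M32.ofN (nxL.getD 2 0)).val = nxL.getD 2 0 ∧ (M32.ofN 2).val = 2 := by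
  decide +kernel

theorem fusion_simple {H : Type*} [Group H] [Finite H] (e : QJ ≃* H) (S : Sylow 2 H) :
    (Cfsg.groupFusionSystem (S : Subgroup H)).IsSimple 2 := by
  have hcard : Nat.card QJ = 50232960 := card_J
  have hfin : Finite QJ := Nat.finite_of_card_ne_zero (by rw [hcard]; norm_num)
  obtain ⟨A, letsk, cw, _, _, hA, _⟩ := (LJ).ex
  obtain ⟨A', hRA⟩ := new_action (P := P) (Q := Cfsg.Agent.CosetEnum.J3T6.P) rfl A hA (ws := ws) (by decide +kernel) (by decide +kernel)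
    (by decide +kernel) ncov
  have h : LettersOK P (newL qJ ws) := letters_ok hRA
  obtain ⟨_, _, xA, _⟩ := concl hcard h
  set g := newL qJ ws with hg
  obtain ⟨f1, f2, f3, f4, f5, f6, f7, f8⟩ := facts h xA
  have hpt : MulAction.IsPretransitive QJ (Fin P.m) :=
    transitive_of_lev (levA0 h).1 rfl (show 0 < 6156 by norm_num)
  have hle : Nat.card (centralizer ({elt g cz} : Set QJ)) ≤ 1920 := by
    have hbs : (fbs P lA ltA).map Fin.val = bA := by rw [fbs_map]; rfl
    obtain ⟨⟨S, hS, hS'⟩, _⟩ := cnjS_sound h (bs := fbs P lA ltA) (by rw [hbs]; exact j0)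
    have e3 := card_centralizer_le (m := P.m) (elt g cz) (⟨0, show 0 < 6156 by norm_num⟩ : Fin P.m) hS
      (fun x hx => ⟨(hS' x hx).2.2.1, (hS' x hx).2.2.2 _ rfl⟩)
    have e4 : Nat.card (MulAction.fixedBy (Fin P.m) (elt g cz)) = 76 :=
      (card_fixedBy h cz).trans (beq_true f0)
    rw [e4, hcard, show P.m = 6156 from rfl] at e3
    omega
  have hz : phi h xA M32.z = elt g cz := f6
  have hz1 : phi h xA M32.z ≠ 1 := by rw [hz]; exact f8
  obtain ⟨hcl, _⟩ := main (MulEquiv.refl QJ)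
  refine fusion32 (phi h xA) f1 f2 f3 f7 hz1 (by rw [hz, f4]) (by rw [hz, f5]) (norm_x h xA) (norm_y h xA)
    (by rw [hz]; exact hle) ?_ ?_ (k := 392445) (by norm_num) (by rw [hcard]) e S
  · refine ⟨M32.ofN 2, ?_⟩
    have h1 := all_range k1 2 (by norm_num)
    rw [Bool.and_eq_true] at h1
    have h2 := eqE_sound h xA h1.1
    simp only [eltE_even, eltE_odd, eltE_nil, mul_one] at h2
    obtain ⟨n1, n2, n3, n4⟩ := nx_two
    have h3 : (elt g cx)⁻¹ * phi h xA (M32.ofN 2) * elt g cx = phi h xA (M32.ofN (nxL.getD 2 0)) := by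
      show (elt g cx)⁻¹ * elt g (wd (M32.ofN 2).val) * elt g cx = elt g (wd (M32.ofN (nxL.getD 2 0)).val)
      rw [n3, n4, mul_assoc]
      exact h2
    have hinj := M32.hom_injective _ hz1
    rw [h3]
    exact ⟨fun h4 => n1 (hinj h4), fun h4 => n2 (hinj h4)⟩
  · intro t ht ht1
    refine hcl _ _ (orderOf_eq_prime ?_ hz1) (orderOf_eq_prime (by rw [pow_two]; exact ht) ht1)
    rw [pow_two, ← map_mul, M32.z_sq, map_one]

end Cfsg.Agent.J3Cent
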